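import Mathlib
import Cfsg.Agent.H20.PairCond
import Cfsg.Agent.Bal.Quot
import Cfsg.Agent.Cop.Basic

/-! Reduction for S4100: a group in which non-central `p`-elements have solvable centralizers
does not map onto a large alternating group. -/

set_option autoImplicit false

namespace Cfsg.Agent.H86

open Subgroup

universe u

theorem a5_not_solvable : ¬ Group.IsSolvable (alternatingGroup (Fin 5)) := by
  intro hs
  have hsimp : IsSimpleGroup (alternatingGroup (Fin 5)) := alternatingGroup.isSimpleGroup (by simp)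
  have h := (IsSimpleGroup.comm_iff_isSolvable).2 hs
  revert h; decide +kernel

theorem emb (n : ℕ) (σ : Equiv.Perm (Fin n)) (hσ : Equiv.Perm.sign σ = 1) :
    ∃ (x0 : alternatingGroup (Fin (n + 5))) (Y : Subgroup (alternatingGroup (Fin (n + 5)))),
      orderOf x0 = orderOf σ ∧ Nat.card Y = 60 ∧ ¬ Group.IsSolvable Y ∧ ∀ y ∈ Y, y * x0 = x0 * y := by
  obtain ⟨Φ, hΦi, hΦs⟩ : ∃ Φ : Equiv.Perm (Fin n) × Equiv.Perm (Fin 5) →* Equiv.Perm (Fin (n + 5)),
      Function.Injective Φ ∧ ∀ a b, Equiv.Perm.sign (Φ (a, b)) = Equiv.Perm.sign a * Equiv.Perm.sign b := by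
    refine ⟨(finSumFinEquiv.permCongrHom.toMonoidHom).comp (Equiv.Perm.sumCongrHom _ _), ?_, ?_⟩
    · exact finSumFinEquiv.permCongrHom.injective.comp Equiv.Perm.sumCongrHom_injective
    · intro a b
      simp only [MonoidHom.comp_apply, MulEquiv.toMonoidHom_eq_coe, MonoidHom.coe_coe,
        Equiv.permCongrHom_coe, Equiv.Perm.sign_permCongr]
      exact Equiv.Perm.sign_sumCongr a b
  let ψ : alternatingGroup (Fin 5) →* alternatingGroup (Fin (n + 5)) :=
    { toFun := fun τ => ⟨Φ (1, (τ : Equiv.Perm (Fin 5))), by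
        rw [Equiv.Perm.mem_alternatingGroup, hΦs, map_one, one_mul]
        exact Equiv.Perm.mem_alternatingGroup.1 τ.2⟩
      map_one' := by ext1; exact map_one Φ
      map_mul' := by
        intro a b
        ext1
        simp only [Subgroup.coe_mul]
        rw [← map_mul]; simp }
  have hψ : Function.Injective ψ := by
    intro a b h
    have h1 := hΦi (congrArg Subtype.val h)
    ext1
    exact (Prod.mk.inj h1).2
  refine ⟨⟨Φ (σ, 1), by rw [Equiv.Perm.mem_alternatingGroup, hΦs, hσ, map_one, one_mul]⟩, ψ.range,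
    ?_, ?_, ?_, ?_⟩
  · rw [← Subgroup.orderOf_coe]
    simp only
    rw [orderOf_injective Φ hΦi, Prod.orderOf]
    simp
  · have e : Nat.card ψ.range = Nat.card (alternatingGroup (Fin 5)) :=
      (Nat.card_congr (MonoidHom.ofInjective hψ).toEquiv).symm
    rw [e, nat_card_alternatingGroup]
    simp [Nat.factorial]
  · intro hs
    apply a5_not_solvable
    exact Group.isSolvable_of_isSolvable_injective (f := (MonoidHom.ofInjective hψ).toMonoidHom)
      (MonoidHom.ofInjective hψ).injective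
  · rintro _ ⟨τ, rfl⟩
    ext1
    simp only [Subgroup.coe_mul]
    show Φ (1, (τ : Equiv.Perm (Fin 5))) * Φ (σ, 1) = Φ (σ, 1) * Φ (1, (τ : Equiv.Perm (Fin 5)))
    rw [← map_mul, ← map_mul]
    simp

theorem not_solvable_centralizer {G : Type*} [Group G] (x : G) (Yh : Subgroup G)
    (hY : ¬ Group.IsSolvable Yh) (hc : ∀ y ∈ Yh, x * y * x⁻¹ * y⁻¹ ∈ Subgroup.center G) :
    ¬ Group.IsSolvable (Subgroup.centralizer ({x} : Set G)) := by
  intro hs
  apply hY
  let φ : Yh →* Subgroup.center G :=
    { toFun := fun y => ⟨x * y * x⁻¹ * (y : G)⁻¹, hc y y.2⟩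
      map_one' := by ext1; simp
      map_mul' := by
        intro a b
        ext1
        simp only [Subgroup.coe_mul]
        have h1 := Subgroup.mem_center_iff.1 (hc b b.2) (a : G)⁻¹
        calc x * (a * b : G) * x⁻¹ * (a * b : G)⁻¹
            = (x * a * x⁻¹) * ((x * b * x⁻¹ * (b : G)⁻¹) * (a : G)⁻¹) := by group
          _ = (x * a * x⁻¹) * ((a : G)⁻¹ * (x * b * x⁻¹ * (b : G)⁻¹)) := by rw [h1]
          _ = x * a * x⁻¹ * (a : G)⁻¹ * (x * b * x⁻¹ * (b : G)⁻¹) := by group }
  have hk : Group.IsSolvable φ.ker := by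
    let ι : φ.ker →* Subgroup.centralizer ({x} : Set G) :=
      { toFun := fun y => ⟨((y : Yh) : G), by
          have h2 : x * ((y : Yh) : G) * x⁻¹ * ((y : Yh) : G)⁻¹ = 1 :=
            congrArg Subtype.val (MonoidHom.mem_ker.1 y.2)
          rw [Subgroup.mem_centralizer_singleton_iff]
          have h3 : x * ((y : Yh) : G) * x⁻¹ = ((y : Yh) : G) := mul_inv_eq_one.1 h2
          exact (mul_inv_eq_iff_eq_mul.1 h3).symm⟩
        map_one' := rfl
        map_mul' := fun _ _ => rfl }
    refine Group.isSolvable_of_isSolvable_injective (f := ι) ?_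
    intro a b h
    have h4 := congrArg (fun t : Subgroup.centralizer ({x} : Set G) => (t : G)) h
    exact Subtype.ext (Subtype.ext h4)
  have hz : Group.IsSolvable (Subgroup.center G) :=
    Group.isSolvable_of_comm (fun a b => by
      ext1; exact (Subgroup.mem_center_iff.1 b.2 (a : G)))
  exact Group.isSolvable_of_ker_le_range φ.ker.subtype φ (by rw [Subgroup.range_subtype])

/-- The hypothesis: non-central `p`-elements have solvable centralizers. -/
def Hp (p : ℕ) (G : Type*) [Group G] : Prop :=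
  ∀ x : G, (∃ k : ℕ, orderOf x = p ^ k) → ¬ Group.IsSolvable (Subgroup.centralizer ({x} : Set G)) →
    x ∈ Subgroup.center G

theorem fin_step {p : ℕ} {G : Type*} [Group G] (h : Hp p G) {m : ℕ} (hm : 5 ≤ m)
    (π : G →* alternatingGroup (Fin m)) (hπ : Function.Surjective π) (x : G)
    (hx : ∃ k : ℕ, orderOf x = p ^ k)
    (hc : ¬ Group.IsSolvable (Subgroup.centralizer ({x} : Set G))) (hx1 : π x ≠ 1) : False := by
  apply hx1
  have h1 := h x hx hc
  have h2 : π x ∈ Subgroup.center (alternatingGroup (Fin m)) := by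
    rw [Subgroup.mem_center_iff]
    intro g
    obtain ⟨y, rfl⟩ := hπ g
    rw [← map_mul, ← map_mul, Subgroup.mem_center_iff.1 h1 y]
  have h3 : Subgroup.center (alternatingGroup (Fin m)) = ⊥ :=
    alternatingGroup.center_eq_bot (by rw [Nat.card_eq_fintype_card, Fintype.card_fin]; omega)
  rw [h3, Subgroup.mem_bot] at h2
  exact h2

theorem Hp.subgroup {p : ℕ} {G : Type*} [Group G] (h : Hp p G) (H : Subgroup G) : Hp p H := by
  intro x hx hc
  have h1 : (x : G) ∈ Subgroup.center G := by
    apply h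
    · obtain ⟨k, hk⟩ := hx
      exact ⟨k, by rw [Subgroup.orderOf_coe, hk]⟩
    · intro hs
      apply hc
      let ι : Subgroup.centralizer ({x} : Set H) →* Subgroup.centralizer ({(x : G)} : Set G) :=
        { toFun := fun y => ⟨((y : H) : G), by
            have h2 := Subgroup.mem_centralizer_singleton_iff.1 y.2
            rw [Subgroup.mem_centralizer_singleton_iff]
            exact congrArg Subtype.val h2⟩
          map_one' := rfl
          map_mul' := fun _ _ => rfl }
      refine Group.isSolvable_of_isSolvable_injective (f := ι) ?_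
      intro a b hab
      have h4 := congrArg (fun t : Subgroup.centralizer ({(x : G)} : Set G) => (t : G)) hab
      exact Subtype.ext (Subtype.ext h4)
  rw [Subgroup.mem_center_iff] at h1 ⊢
  intro g
  ext1
  exact h1 g

theorem Hp.map {p : ℕ} [hp : Fact p.Prime] {G H : Type*} [Group G] [Finite G] [Group H]
    (h : Hp p G) (f : G →* H) (hf : Function.Surjective f) (hk : (Nat.card f.ker).Coprime p) :
    Hp p H := by
  intro y hy hc
  obtain ⟨x, rfl, hx⟩ := Cfsg.Agent.H20.PairCond.exists_lift f hf hp.out hy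
  have h1 := Cfsg.Agent.Bal.map_centralizer_singleton f hf hk hx
  have h2 : x ∈ Subgroup.center G := by
    apply h x hx
    intro hs
    apply hc
    rw [← h1]
    exact Group.isSolvable_of_surjective (f := f.subgroupMap (Subgroup.centralizer ({x} : Set G)))
      (f.subgroupMap_surjective _)
  rw [Subgroup.mem_center_iff] at h2 ⊢
  intro g
  obtain ⟨g, rfl⟩ := hf g
  rw [← map_mul, ← map_mul, h2 g]

/-- p-group kernel, `p ≥ 7`. -/
theorem big_case {p : ℕ} [hp : Fact p.Prime] {G : Type*} [Group G] [Finite G] (h : Hp p G)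
    (h7 : 7 ≤ p) (π : G →* alternatingGroup (Fin (p + 5))) (hπ : Function.Surjective π)
    (hK : IsPGroup p π.ker) : False := by
  classical
  have hp2 : p ≠ 2 := by omega
  have hodd : Odd p := hp.out.odd_of_ne_two hp2
  obtain ⟨σ, hσo, hσs⟩ : ∃ σ : Equiv.Perm (Fin p), orderOf σ = p ∧ Equiv.Perm.sign σ = 1 := by
    obtain ⟨n, rfl⟩ : ∃ n, p = n + 2 := ⟨p - 2, by omega⟩
    refine ⟨finRotate (n + 2), ?_, ?_⟩
    · have h1 : (finRotate (n + 2)).IsCycle := isCycle_finRotate
      rw [h1.orderOf, support_finRotate, Finset.card_univ, Fintype.card_fin]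
    · rw [sign_finRotate]
      obtain ⟨k, hk⟩ := hodd
      have : n + 2 - 1 = 2 * k := by omega
      rw [this, pow_mul]; simp
  obtain ⟨x0, Y, hx0, hYc, hYs, hcom⟩ := emb p σ hσs
  rw [hσo] at hx0
  have hx01 : x0 ≠ 1 := by
    rintro rfl
    rw [orderOf_one] at hx0
    omega
  -- R = preimage of ⟨x0⟩
  obtain ⟨R, hR⟩ : ∃ R : Subgroup G, R = (Subgroup.zpowers x0).comap π := ⟨_, rfl⟩
  have hRp : IsPGroup p R := by
    have hz : IsPGroup p (Subgroup.zpowers x0) :=
      IsPGroup.of_card (n := 1) (by rw [Nat.card_zpowers, hx0, pow_one])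
    rw [hR]
    exact hz.comap_of_ker_isPGroup π hK
  obtain ⟨L, hL⟩ : ∃ L : Subgroup G, L = Y.comap π := ⟨_, rfl⟩
  have hLm : ∀ g, g ∈ L ↔ π g ∈ Y := by intro g; rw [hL]; exact Iff.rfl
  have hKL : π.ker ≤ L := by
    intro k hk
    rw [hL, Subgroup.mem_comap, MonoidHom.mem_ker.1 hk]
    exact one_mem _
  -- complement of K in L
  have hcop60 : Nat.Coprime 60 p := by
    rw [Nat.coprime_comm, hp.out.coprime_iff_not_dvd]
    intro hd
    have : p ≤ 5 := by
      have h1 : p ∣ 2 * 2 * (3 * 5) := by simpa using hd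
      rw [hp.out.dvd_mul, hp.out.dvd_mul, hp.out.dvd_mul] at h1
      rcases h1 with (h1 | h1) | h1 | h1
      · exact (Nat.le_of_dvd (by norm_num) h1).trans (by norm_num)
      · exact (Nat.le_of_dvd (by norm_num) h1).trans (by norm_num)
      · exact (Nat.le_of_dvd (by norm_num) h1).trans (by norm_num)
      · exact Nat.le_of_dvd (by norm_num) h1
    omega
  have hKnL : (π.ker.subgroupOf L).Normal := inferInstance
  have hidx : (π.ker.subgroupOf L).index = 60 := by
    have e : (π.ker.subgroupOf L).index = Nat.card Y := by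
      let ρ : L →* Y := (π.comp L.subtype).codRestrict Y (by
        intro x
        exact (hLm _).1 x.2)
      have hρs : Function.Surjective ρ := by
        rintro ⟨y, hy⟩
        obtain ⟨g, rfl⟩ := hπ y
        exact ⟨⟨g, (hLm g).2 hy⟩, rfl⟩
      have hρk : ρ.ker = π.ker.subgroupOf L := by
        ext x
        rw [MonoidHom.mem_ker, Subgroup.mem_subgroupOf, MonoidHom.mem_ker]
        constructor
        · intro h1; exact congrArg Subtype.val h1
        · intro h1; exact Subtype.ext h1
      rw [← hρk, Subgroup.index_ker, MonoidHom.range_eq_top.2 hρs]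
      exact Nat.card_congr Subgroup.topEquiv.toEquiv
    rw [e, hYc]
  obtain ⟨k, hk⟩ := (IsPGroup.iff_card.1 hK)
  have hcardK : Nat.card (π.ker.subgroupOf L) = p ^ k := by
    rw [← hk]
    exact Nat.card_congr (Subgroup.subgroupOfEquivOfLe hKL).toEquiv
  obtain ⟨C, hC⟩ := Subgroup.exists_right_complement'_of_coprime
    (N := π.ker.subgroupOf L) (by rw [hidx, hcardK]; exact (Nat.Coprime.pow_right k hcop60).symm)
  have hCc : Nat.card C = 60 := by rw [← hC.symm.index_eq_card, hidx]
  obtain ⟨A, hA⟩ : ∃ A : Subgroup G, A = C.map L.subtype := ⟨_, rfl⟩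
  have hAc : Nat.card A = 60 := by
    rw [hA, Subgroup.card_map_of_injective L.subtype_injective, hCc]
  have hAL : A ≤ L := by rw [hA]; exact Subgroup.map_subtype_le C
  have hAπ : ∀ a ∈ A, π a ∈ Y := by
    intro a ha
    have := hAL ha
    rw [hL] at this
    exact this
  have hcoma : ∀ a ∈ A, π a * x0 = x0 * π a := fun a ha => hcom _ (hAπ a ha)
  obtain ⟨x, hx⟩ := hπ x0
  have hAR : A ≤ Subgroup.normalizer (R : Set G) := by
    intro a ha
    rw [Subgroup.mem_normalizer_iff]
    intro r
    have hca : ∀ z ∈ Subgroup.zpowers x0, π a * z = z * π a := by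
      rintro _ ⟨j, rfl⟩
      exact ((show Commute (π a) x0 from hcoma a ha).zpow_right j).eq
    rw [hR, Subgroup.mem_comap, Subgroup.mem_comap, map_mul, map_mul, map_inv]
    constructor
    · intro hr
      rw [hca _ hr, mul_inv_cancel_right]; exact hr
    · intro hr
      have h1 := hca _ hr
      have h2 : π r = π a * π r * (π a)⁻¹ := by
        have h3 : π a * (π a * π r * (π a)⁻¹) * (π a)⁻¹ = π a * π r * (π a)⁻¹ := by
          rw [h1, mul_inv_cancel_right]
        have h4 := mul_left_cancel (mul_right_cancel h3)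
        exact h4.symm
      rw [h2]; exact hr
  have hRn : R ≤ Subgroup.normalizer (π.ker : Set G) := by
    rw [Subgroup.normalizer_eq_top]; exact le_top
  have hAn : A ≤ Subgroup.normalizer (π.ker : Set G) := by
    rw [Subgroup.normalizer_eq_top]; exact le_top
  obtain ⟨j, hj⟩ := IsPGroup.iff_card.1 hRp
  obtain ⟨c, hc1, hc2⟩ := Cfsg.Agent.Cop.fixed_points_quotient A R hAR
    (by rw [hAc, hj]; exact Nat.Coprime.pow_right j hcop60)
    (Or.inr (by have := hRp.isNilpotent; exact inferInstance)) π.ker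
    (by intro k hk; rw [hR, Subgroup.mem_comap, MonoidHom.mem_ker.1 hk]; exact one_mem _)
    hRn hAn x (by rw [hR, Subgroup.mem_comap, hx]; exact Subgroup.mem_zpowers x0)
    (by
      intro a ha
      rw [MonoidHom.mem_ker, map_mul, map_mul, map_mul, map_inv, map_inv, hx, hcoma a ha]
      group)
  have hcR : c ∈ R := hc1.1
  have hcA : ∀ a ∈ A, a * c = c * a := fun a ha => Subgroup.mem_centralizer_iff.1 hc1.2 a ha
  have hπc : π c = x0 := by
    rw [MonoidHom.mem_ker, map_mul, map_inv, hx] at hc2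
    exact (inv_mul_eq_one.1 hc2).symm
  refine fin_step h (by omega) π hπ c ?_ ?_ (by rw [hπc]; exact hx01)
  · obtain ⟨i, hi⟩ := (IsPGroup.iff_orderOf.1 hRp) ⟨c, hcR⟩
    exact ⟨i, by rw [← hi, ← Subgroup.orderOf_coe]⟩
  · refine not_solvable_centralizer c A ?_ ?_
    · intro hs
      apply hYs
      let ρ : A →* Y := (π.comp A.subtype).codRestrict Y (fun a => hAπ _ a.2)
      have hρi : Function.Injective ρ := by
        rw [injective_iff_map_eq_one]
        intro a ha
        have h1 : π (a : G) = 1 := congrArg Subtype.val ha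
        have h2 : (a : G) ∈ π.ker := h1
        have h3 : orderOf (a : G) ∣ 60 := by
          rw [← hAc, Subgroup.orderOf_coe]; exact orderOf_dvd_natCard a
        have h4 : orderOf (a : G) ∣ p ^ k := by
          rw [← hk]
          have := orderOf_dvd_natCard (⟨(a : G), h2⟩ : π.ker)
          rwa [← Subgroup.orderOf_coe] at this
        have h5 : orderOf (a : G) = 1 :=
          Nat.eq_one_of_dvd_coprimes (Nat.Coprime.pow_right k hcop60) h3 h4
        exact Subtype.ext (orderOf_eq_one_iff.1 h5)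
      have hρb : Function.Bijective ρ :=
        hρi.bijective_of_nat_card_le (by rw [hAc, hYc])
      exact Group.isSolvable_of_surjective (f := ρ) hρb.2
    · intro a ha
      have : c * a * c⁻¹ * a⁻¹ = 1 := by rw [← hcA a ha]; group
      rw [this]; exact one_mem _

theorem comap_not_solvable {G H : Type*} [Group G] [Group H] (π : G →* H)
    (hπ : Function.Surjective π) (Y : Subgroup H) (hY : ¬ Group.IsSolvable Y) :
    ¬ Group.IsSolvable (Y.comap π) := by
  intro hs
  apply hY
  refine Group.isSolvable_of_surjective (f := π.subgroupComap Y) ?_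
  rintro ⟨y, hy⟩
  obtain ⟨g, rfl⟩ := hπ y
  exact ⟨⟨g, hy⟩, rfl⟩

theorem central_case {p : ℕ} [hp : Fact p.Prime] {G : Type*} [Group G] [Finite G] (h : Hp p G)
    {m : ℕ} (hm : 5 ≤ m) (π : G →* alternatingGroup (Fin m)) (hπ : Function.Surjective π)
    (hK : π.ker ≤ Subgroup.center G) (x0 : alternatingGroup (Fin m))
    (hx0 : ∃ k : ℕ, orderOf x0 = p ^ k) (hx01 : x0 ≠ 1) (Y : Subgroup (alternatingGroup (Fin m)))
    (hYs : ¬ Group.IsSolvable Y) (hcom : ∀ y ∈ Y, y * x0 = x0 * y) : False := by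
  obtain ⟨x, hx, hxp⟩ := Cfsg.Agent.H20.PairCond.exists_lift π hπ hp.out hx0
  refine fin_step h hm π hπ x hxp ?_ (by rw [hx]; exact hx01)
  refine not_solvable_centralizer x (Y.comap π) (comap_not_solvable π hπ Y hYs) ?_
  intro y hy
  apply hK
  rw [MonoidHom.mem_ker, map_mul, map_mul, map_mul, map_inv, map_inv, hx, ← hcom _ hy]
  group

theorem noncentral_case {p : ℕ} [hp : Fact p.Prime] {G : Type u} [Group G] [Finite G] (h : Hp p G)
    {m : ℕ} (π : G →* alternatingGroup (Fin m)) (hπ : Function.Surjective π)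
    (hKp : IsPGroup p π.ker) (hK : ¬ π.ker ≤ Subgroup.center G)
    (hstar : ∀ (V : Type u) [AddCommGroup V] [Finite V], (∀ v : V, p • v = 0) →
      (∃ v : V, v ≠ 0) → ∀ rho : alternatingGroup (Fin m) →* AddMonoid.End V,
      ∃ Y : Subgroup (alternatingGroup (Fin m)), ¬ Group.IsSolvable Y ∧
        ∃ v : V, v ≠ 0 ∧ ∀ y ∈ Y, rho y v = v) : False := by
  classical
  obtain ⟨Z1, hZ1⟩ : ∃ Z1 : Subgroup G, Z1 = π.ker ⊓ Subgroup.center G := ⟨_, rfl⟩
  have hZn : Z1.Normal := by rw [hZ1]; infer_instance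
  obtain ⟨Kb, hKb⟩ : ∃ Kb : Subgroup (G ⧸ Z1), Kb = π.ker.map (QuotientGroup.mk' Z1) := ⟨_, rfl⟩
  have hKbn : Kb.Normal := by
    rw [hKb]
    exact Subgroup.Normal.map inferInstance _ (QuotientGroup.mk'_surjective Z1)
  have hKbp : IsPGroup p Kb := by rw [hKb]; exact hKp.map _
  have hnt : Nontrivial Kb := by
    rw [Subgroup.nontrivial_iff_ne_bot]
    intro hb
    apply hK
    intro k hk
    have h1 : QuotientGroup.mk' Z1 k ∈ Kb := by rw [hKb]; exact ⟨k, hk, rfl⟩
    rw [hb, Subgroup.mem_bot] at h1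
    have h2 : k ∈ Z1 := (QuotientGroup.eq_one_iff k).1 h1
    rw [hZ1] at h2
    exact h2.2
  let W : Subgroup (G ⧸ Z1) :=
    { carrier := {w | w ∈ Kb ∧ (∀ k ∈ Kb, w * k = k * w) ∧ w ^ p = 1}
      one_mem' := ⟨one_mem _, fun k _ => by rw [one_mul, mul_one], one_pow p⟩
      mul_mem' := by
        rintro a b ⟨ha1, ha2, ha3⟩ ⟨hb1, hb2, hb3⟩
        refine ⟨mul_mem ha1 hb1, fun k hk => ?_, ?_⟩
        · rw [mul_assoc, hb2 k hk, ← mul_assoc, ha2 k hk, mul_assoc]
        · rw [(show Commute a b from ha2 b hb1).mul_pow, ha3, hb3, one_mul]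
      inv_mem' := by
        rintro a ⟨ha1, ha2, ha3⟩
        refine ⟨inv_mem ha1, fun k hk => ?_, by rw [inv_pow, ha3, inv_one]⟩
        exact ((show Commute a k from ha2 k hk).inv_left).eq }
  have hWm : ∀ w, w ∈ W ↔ (w ∈ Kb ∧ (∀ k ∈ Kb, w * k = k * w) ∧ w ^ p = 1) := fun w => Iff.rfl
  have hWn : W.Normal := by
    constructor
    intro w hw g
    obtain ⟨h1, h2, h3⟩ := (hWm w).1 hw
    refine (hWm _).2 ⟨hKbn.conj_mem w h1 g, fun k hk => ?_, ?_⟩
    · have h4 := h2 (g⁻¹ * k * g) (by simpa using hKbn.conj_mem k hk g⁻¹)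
      calc g * w * g⁻¹ * k = g * (w * (g⁻¹ * k * g)) * g⁻¹ := by group
        _ = g * ((g⁻¹ * k * g) * w) * g⁻¹ := by rw [h4]
        _ = k * (g * w * g⁻¹) := by group
    · rw [conj_pow, h3]; group
  obtain ⟨w0, hw0W, hw01⟩ : ∃ w ∈ W, w ≠ 1 := by
    have hcn := hKbp.center_nontrivial
    have hdvd : p ∣ Nat.card (Subgroup.center Kb) := by
      obtain ⟨n, hn⟩ := (hKbp.to_subgroup (Subgroup.center Kb)).exists_card_eq
      rw [hn]
      rcases n with _ | n
      · exfalso
        rw [pow_zero] at hn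
        exact absurd hn (ne_of_gt Finite.one_lt_card)
      · exact dvd_pow_self _ (Nat.succ_ne_zero n)
    obtain ⟨z, hz⟩ := exists_prime_orderOf_dvd_card' p hdvd
    refine ⟨((z : Kb) : G ⧸ Z1), (hWm _).2 ⟨(z : Kb).2, ?_, ?_⟩, ?_⟩
    · intro k hk
      exact congrArg Subtype.val (Subgroup.mem_center_iff.1 z.2 ⟨k, hk⟩).symm
    · have h2 : z ^ p = 1 := orderOf_dvd_iff_pow_eq_one.1 (by rw [hz])
      exact congrArg (fun t : Subgroup.center Kb => ((t : Kb) : G ⧸ Z1)) h2
    · intro h1
      have : z = 1 := Subtype.ext (Subtype.ext h1)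
      rw [this, orderOf_one] at hz
      exact hp.out.one_lt.ne hz
  have hWc : ∀ a b : W, a * b = b * a := by
    intro a b
    ext1
    exact ((hWm _).1 a.2).2.1 b ((hWm _).1 b.2).1
  let instW : CommGroup W := { (inferInstance : Group W) with mul_comm := hWc }
  let c : G →* MulAut W := (MulAut.conjNormal (H := W)).comp (QuotientGroup.mk' Z1)
  have hcv : ∀ (g : G) (w : W), ((c g w : W) : G ⧸ Z1) =
      QuotientGroup.mk' Z1 g * (w : G ⧸ Z1) * (QuotientGroup.mk' Z1 g)⁻¹ := fun g w => rfl
  have hker : π.ker ≤ c.ker := by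
    intro g hg
    rw [MonoidHom.mem_ker]
    ext w
    rw [hcv]
    have h1 : QuotientGroup.mk' Z1 g ∈ Kb := by rw [hKb]; exact ⟨g, hg, rfl⟩
    rw [← ((hWm _).1 w.2).2.1 _ h1]
    simp
  obtain ⟨ρ, hρ⟩ : ∃ ρ : alternatingGroup (Fin m) →* MulAut W, ∀ g, ρ (π g) = c g :=
    ⟨π.liftOfRightInverse (Function.surjInv hπ) (Function.rightInverse_surjInv hπ) ⟨c, hker⟩,
      fun g => π.liftOfRightInverse_comp_apply _ _ ⟨c, hker⟩ g⟩
  let rho : alternatingGroup (Fin m) →* AddMonoid.End (Additive W) :=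
    { toFun := fun a => MonoidHom.toAdditive (ρ a).toMonoidHom
      map_one' := by ext v; rw [map_one]; rfl
      map_mul' := by intro a b; ext v; rw [map_mul]; rfl }
  obtain ⟨Y, hYs, v, hv0, hv⟩ := hstar (Additive W)
    (by
      intro v
      have h1 : (Additive.toMul v) ^ p = 1 := Subtype.ext ((hWm _).1 (Additive.toMul v).2).2.2
      exact congrArg Additive.ofMul h1)
    ⟨Additive.ofMul ⟨w0, hw0W⟩, fun h1 => hw01 (congrArg Subtype.val (congrArg Additive.toMul h1))⟩
    rho
  obtain ⟨w, hw⟩ : ∃ w : W, w = Additive.toMul v := ⟨_, rfl⟩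
  have hw1 : w ≠ 1 := by
    rintro rfl
    exact hv0 (congrArg Additive.ofMul hw.symm)
  have hwY : ∀ y ∈ Y, ρ y w = w := by
    intro y hy
    rw [hw]
    exact congrArg Additive.toMul (hv y hy)
  have hwK := ((hWm _).1 w.2).1
  rw [hKb] at hwK
  obtain ⟨x, hxK, hxw⟩ := hwK
  have hxZ : x ∈ Subgroup.center G := by
    apply h x
    · obtain ⟨i, hi⟩ := (IsPGroup.iff_orderOf.1 hKp) ⟨x, hxK⟩
      exact ⟨i, by rw [← hi, ← Subgroup.orderOf_coe]⟩
    · refine not_solvable_centralizer x (Y.comap π) (comap_not_solvable π hπ Y hYs) ?_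
      intro y hy
      have h1 : QuotientGroup.mk' Z1 y * (w : G ⧸ Z1) * (QuotientGroup.mk' Z1 y)⁻¹ = w := by
        rw [← hcv, ← hρ, hwY _ hy]
      have h2 : QuotientGroup.mk' Z1 (x * y * x⁻¹ * y⁻¹) = 1 := by
        rw [map_mul, map_mul, map_mul, map_inv, map_inv, hxw]
        have h3 := mul_inv_eq_iff_eq_mul.1 h1
        rw [← h3]
        group
      have h3 : x * y * x⁻¹ * y⁻¹ ∈ Z1 := (QuotientGroup.eq_one_iff _).1 h2
      rw [hZ1] at h3
      exact h3.2
  apply hw1
  have h5 : x ∈ Z1 := by rw [hZ1]; exact ⟨hxK, hxZ⟩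
  have h6 : QuotientGroup.mk' Z1 x = 1 := (QuotientGroup.eq_one_iff _).2 h5
  ext1
  rw [← hxw, h6]; rfl

theorem red_aux (p : ℕ) [hp : Fact p.Prime] (hp3 : p ≠ 3) (m : ℕ)
    (hm : (p ≠ 2 ∧ m = p + 5) ∨ (p = 2 ∧ m = 9))
    (hstar : (p = 2 ∨ p = 5) → ∀ (V : Type u) [AddCommGroup V] [Finite V], (∀ v : V, p • v = 0) →
      (∃ v : V, v ≠ 0) → ∀ rho : alternatingGroup (Fin m) →* AddMonoid.End V,
      ∃ Y : Subgroup (alternatingGroup (Fin m)), ¬ Group.IsSolvable Y ∧
        ∃ v : V, v ≠ 0 ∧ ∀ y ∈ Y, rho y v = v) :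
    ∀ (n : ℕ) (G : Type u) [Group G] [Finite G], Nat.card G = n → Hp p G →
      ∀ π : G →* alternatingGroup (Fin m), Function.Surjective π → False := by
  intro n
  induction n using Nat.strong_induction_on with
  | _ n ih =>
    intro G _ _ hn h π hπ
    -- (i)
    have hnorm : ∀ q : ℕ, ∀ _ : Fact q.Prime, ∀ Q : Sylow q π.ker,
        ((Q : Subgroup π.ker).map π.ker.subtype).Normal := by
      intro q hq Q
      have hsup := Q.normalizer_sup_eq_top
      obtain ⟨H, hH⟩ : ∃ H : Subgroup G, H = Subgroup.normalizer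
          (((Q : Subgroup π.ker).map π.ker.subtype : Subgroup G) : Set G) := ⟨_, rfl⟩
      rw [← hH] at hsup
      by_cases hHt : H = ⊤
      · rw [← Subgroup.normalizer_eq_top_iff, ← hH, hHt]
      · exfalso
        have hlt : Nat.card H < n := by
          rw [← hn]
          refine lt_of_le_of_ne (Subgroup.card_le_card_group H) ?_
          intro hc
          exact hHt (Subgroup.eq_top_of_card_eq H hc)
        refine ih _ hlt H rfl (h.subgroup H) (π.comp H.subtype) ?_
        intro y
        obtain ⟨g, rfl⟩ := hπ y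
        have hg : g ∈ H ⊔ π.ker := by rw [hsup]; exact Subgroup.mem_top g
        obtain ⟨a, ha, b, hb, rfl⟩ := Subgroup.mem_sup_of_normal_right.1 hg
        refine ⟨⟨a, ha⟩, ?_⟩
        rw [map_mul, MonoidHom.mem_ker.1 hb, mul_one]; rfl
    -- (ii)
    have hKp : IsPGroup p π.ker := by
      have hall : ∀ q : ℕ, q.Prime → q ∣ Nat.card π.ker → q = p := by
        intro q hq hqd
        by_contra hqp
        have : Fact q.Prime := ⟨hq⟩
        obtain ⟨Q⟩ : Nonempty (Sylow q π.ker) := inferInstance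
        obtain ⟨Q', hQ'⟩ : ∃ Q' : Subgroup G, Q' = (Q : Subgroup π.ker).map π.ker.subtype := ⟨_, rfl⟩
        have hQn : Q'.Normal := by rw [hQ']; exact hnorm q ⟨hq⟩ Q
        have hcard : Nat.card Q' = Nat.card Q := by
          rw [hQ', Subgroup.card_map_of_injective π.ker.subtype_injective]
        have hq1 : q ∣ Nat.card Q' := by
          rw [hcard]; exact Q.dvd_card_of_dvd_card hqd
        have hcop : (Nat.card Q').Coprime p := by
          rw [hcard]
          obtain ⟨k, hk⟩ := IsPGroup.iff_card.1 Q.isPGroup'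
          rw [hk]
          exact Nat.Coprime.pow_left k ((Nat.coprime_primes hq hp.out).2 hqp)
        have hQK : Q' ≤ π.ker := by rw [hQ']; exact Subgroup.map_subtype_le _
        have hlt : Nat.card (G ⧸ Q') < n := by
          rw [← hn, ← Subgroup.index_eq_card, ← Subgroup.card_mul_index Q']
          have h1 : 1 < Nat.card Q' := lt_of_lt_of_le hq.one_lt (Nat.le_of_dvd Nat.card_pos hq1)
          have h2 : 0 < Q'.index := Nat.pos_of_ne_zero Subgroup.index_ne_zero_of_finite
          nlinarith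
        refine ih _ hlt (G ⧸ Q') rfl
          (h.map (QuotientGroup.mk' Q') (QuotientGroup.mk'_surjective Q') ?_)
          (QuotientGroup.lift Q' π (fun x hx => hQK hx)) ?_
        · rw [QuotientGroup.ker_mk']; exact hcop
        · intro y
          obtain ⟨g, rfl⟩ := hπ y
          exact ⟨QuotientGroup.mk g, rfl⟩
      have := Nat.eq_prime_pow_of_unique_prime_dvd (n := Nat.card π.ker) (p := p) Nat.card_pos.ne'
        (fun {d} hd hdd => hall d hd hdd)
      exact IsPGroup.of_card this
    -- (iii), (iv), (v)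
    by_cases h7 : 7 ≤ p
    · have hm' : m = p + 5 := by
        rcases hm with h1 | h1
        · exact h1.2
        · omega
      subst hm'
      exact big_case h h7 π hπ hKp
    · have h25 : p = 2 ∨ p = 5 := by
        have h1 := hp.out.two_le
        have h4 : p ≠ 4 := by rintro rfl; exact absurd hp.out (by norm_num)
        have h6 : p ≠ 6 := by rintro rfl; exact absurd hp.out (by norm_num)
        omega
      have hm5 : 5 ≤ m := by
        rcases hm with h1 | h1 <;> omega
      by_cases hKc : π.ker ≤ Subgroup.center G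
      · obtain ⟨x0, hx0, hx01, Y, hYs, hcom⟩ : ∃ x0 : alternatingGroup (Fin m),
            (∃ k : ℕ, orderOf x0 = p ^ k) ∧ x0 ≠ 1 ∧ ∃ Y : Subgroup (alternatingGroup (Fin m)),
              ¬ Group.IsSolvable Y ∧ ∀ y ∈ Y, y * x0 = x0 * y := by
          rcases h25 with rfl | rfl
          · have hm9 : m = 4 + 5 := by
              rcases hm with h1 | h1
              · exact absurd rfl h1.1
              · exact h1.2
            subst hm9
            have hσ : orderOf (Equiv.swap (0 : Fin 4) 1 * Equiv.swap 2 3) = 2 :=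
              orderOf_eq_prime (by decide) (by decide)
            obtain ⟨x0, Y, h1, -, h2, h3⟩ := emb 4 (Equiv.swap (0 : Fin 4) 1 * Equiv.swap 2 3)
              (by decide)
            rw [hσ] at h1
            refine ⟨x0, ⟨1, by rw [h1, pow_one]⟩, ?_, Y, h2, h3⟩
            rintro rfl
            rw [orderOf_one] at h1
            omega
          · have hm9 : m = 5 + 5 := by
              rcases hm with h1 | h1
              · exact h1.2
              · omega
            subst hm9
            have : Fact (Nat.Prime 5) := ⟨by norm_num⟩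
            have hσ : orderOf (finRotate 5) = 5 :=
              orderOf_eq_prime (by decide) (by decide)
            obtain ⟨x0, Y, h1, -, h2, h3⟩ := emb 5 (finRotate 5) (by decide)
            rw [hσ] at h1
            refine ⟨x0, ⟨1, by rw [h1, pow_one]⟩, ?_, Y, h2, h3⟩
            rintro rfl
            rw [orderOf_one] at h1
            omega
        exact central_case h hm5 π hπ hKc x0 hx0 hx01 Y hYs hcom
      · exact noncentral_case h π hπ hKp hKc (hstar h25)

/-- **Reduction theorem** (S4100). -/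
theorem red {G : Type u} [Group G] [Finite G] (p : ℕ) [Fact p.Prime] (hp3 : p ≠ 3) (m : ℕ)
    (hm : (p ≠ 2 ∧ m = p + 5) ∨ (p = 2 ∧ m = 9))
    (hstar : (p = 2 ∨ p = 5) → ∀ (V : Type u) [AddCommGroup V] [Finite V], (∀ v : V, p • v = 0) →
      (∃ v : V, v ≠ 0) → ∀ rho : alternatingGroup (Fin m) →* AddMonoid.End V,
      ∃ Y : Subgroup (alternatingGroup (Fin m)), ¬ Group.IsSolvable Y ∧
        ∃ v : V, v ≠ 0 ∧ ∀ y ∈ Y, rho y v = v)
    (h : ∀ x : G, (∃ k : ℕ, orderOf x = p ^ k) →
      ¬ Group.IsSolvable (Subgroup.centralizer ({x} : Set G)) → x ∈ Subgroup.center G)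
    (π : G →* alternatingGroup (Fin m)) (hπ : Function.Surjective π) : False :=
  red_aux p hp3 m hm hstar _ G rfl h π hπ

end Cfsg.Agent.H86
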