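import Cfsg.Agent.H86.AltRed
import Cfsg.Prelude.Def_LocalEven

/-! End of S4100: from `red` to the bound on the degree of alternating sections. -/

set_option autoImplicit false

namespace Cfsg.Agent.H86

open Subgroup

universe u

theorem exists_embed {m d : ℕ} (hmd : m ≤ d) :
    ∃ j : alternatingGroup (Fin m) →* alternatingGroup (Fin d), Function.Injective j := by
  obtain ⟨k, rfl⟩ := Nat.exists_eq_add_of_le hmd
  obtain ⟨Φ, hΦi, hΦs⟩ : ∃ Φ : Equiv.Perm (Fin m) × Equiv.Perm (Fin k) →* Equiv.Perm (Fin (m + k)),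
      Function.Injective Φ ∧ ∀ a b, Equiv.Perm.sign (Φ (a, b)) = Equiv.Perm.sign a * Equiv.Perm.sign b := by
    refine ⟨(finSumFinEquiv.permCongrHom.toMonoidHom).comp (Equiv.Perm.sumCongrHom _ _), ?_, ?_⟩
    · exact finSumFinEquiv.permCongrHom.injective.comp Equiv.Perm.sumCongrHom_injective
    · intro a b
      simp only [MonoidHom.comp_apply, MulEquiv.toMonoidHom_eq_coe, MonoidHom.coe_coe,
        Equiv.permCongrHom_coe, Equiv.Perm.sign_permCongr]
      exact Equiv.Perm.sign_sumCongr a b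
  let ψ : alternatingGroup (Fin m) →* alternatingGroup (Fin (m + k)) :=
    { toFun := fun τ => ⟨Φ ((τ : Equiv.Perm (Fin m)), 1), by
        rw [Equiv.Perm.mem_alternatingGroup, hΦs, map_one, mul_one]
        exact Equiv.Perm.mem_alternatingGroup.1 τ.2⟩
      map_one' := by ext1; exact map_one Φ
      map_mul' := by
        intro a b
        ext1
        simp only [Subgroup.coe_mul]
        rw [← map_mul]; simp }
  refine ⟨ψ, ?_⟩
  intro a b h
  have h1 := hΦi (congrArg Subtype.val h)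
  ext1
  exact (Prod.mk.inj h1).1

/-- The row S4100 from the two module theorems. -/
theorem finish {G : Type u} [Group G] [Finite G] (p : ℕ) [Fact p.Prime] (hp3 : p ≠ 3)
    (h : Hp p G)
    (hstar2 : ∀ (V : Type u) [AddCommGroup V] [Finite V], (∀ v : V, 2 • v = 0) →
      (∃ v : V, v ≠ 0) → ∀ rho : alternatingGroup (Fin 9) →* AddMonoid.End V,
      ∃ Y : Subgroup (alternatingGroup (Fin 9)), ¬ Group.IsSolvable Y ∧
        ∃ v : V, v ≠ 0 ∧ ∀ y ∈ Y, rho y v = v)
    (hstar5 : ∀ (V : Type u) [AddCommGroup V] [Finite V], (∀ v : V, 5 • v = 0) →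
      (∃ v : V, v ≠ 0) → ∀ rho : alternatingGroup (Fin 10) →* AddMonoid.End V,
      ∃ Y : Subgroup (alternatingGroup (Fin 10)), ¬ Group.IsSolvable Y ∧
        ∃ v : V, v ≠ 0 ∧ ∀ y ∈ Y, rho y v = v)
    (d : ℕ) (hinv : Cfsg.Involves (alternatingGroup (Fin d)) G) :
    d ≤ p + 4 + (if p = 2 then 2 else 0) := by
  by_contra hcon
  obtain ⟨m, hm, hmd⟩ : ∃ m, ((p ≠ 2 ∧ m = p + 5) ∨ (p = 2 ∧ m = 9)) ∧ m ≤ d := by
    by_cases h2 : p = 2
    · rw [if_pos h2] at hcon
      exact ⟨9, Or.inr ⟨h2, rfl⟩, by omega⟩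
    · rw [if_neg h2] at hcon
      exact ⟨p + 5, Or.inl ⟨h2, rfl⟩, by omega⟩
  obtain ⟨K, R, hn, ⟨e⟩⟩ := hinv
  obtain ⟨j, hj⟩ := exists_embed hmd
  let π0 : K →* alternatingGroup (Fin d) := e.toMonoidHom.comp (QuotientGroup.mk' (R.subgroupOf K))
  have hπ0 : Function.Surjective π0 := e.surjective.comp (QuotientGroup.mk'_surjective _)
  let H : Subgroup K := j.range.comap π0
  let π : H →* alternatingGroup (Fin m) :=
    (MonoidHom.ofInjective hj).symm.toMonoidHom.comp (π0.subgroupComap j.range)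
  have hπ : Function.Surjective π := by
    apply (MonoidHom.ofInjective hj).symm.surjective.comp
    rintro ⟨y, hy⟩
    obtain ⟨g, rfl⟩ := hπ0 y
    exact ⟨⟨g, hy⟩, rfl⟩
  refine red (G := H) p hp3 m hm ?_ ((h.subgroup K).subgroup H) π hπ
  intro h25 V _ _ hV1 hV2 rho
  rcases h25 with rfl | rfl
  · have hm9 : m = 9 := by
      rcases hm with h1 | h1
      · exact absurd rfl h1.1
      · exact h1.2
    subst hm9
    exact hstar2 V hV1 hV2 rho
  · have hm9 : m = 10 := by
      rcases hm with h1 | h1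
      · exact h1.2
      · omega
    subst hm9
    exact hstar5 V hV1 hV2 rho

end Cfsg.Agent.H86
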